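import Cfsg.Agent.H419.EP.Soc

/-!
# S3499: the base size criterion (helper803)

In an extremely primitive group two point stabilisers are not trivial. So `A` is not too small: if every proper subgroup
of `Q` has index at least `P`, then `P ≤ 1 + |B|²` where `B` is the set of the elements of prime order of `A` (in
particular `P ≤ |A|²`).
-/

set_option autoImplicit false

namespace Cfsg.Agent.H803.EPB

open Subgroup Cfsg.Agent.H284 Cfsg.Agent.H419.EP

variable {Q : Type*} [Group Q] [Finite Q]

/-- `|{x | x b x⁻¹ = a}| ≤ |C(b)|` -/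
theorem card_transporter (a b : Q) : {x : Q | x * b * x⁻¹ = a}.ncard ≤ Nat.card (centralizer ({b} : Set Q)) := by
  classical
  rcases Set.eq_empty_or_nonempty {x : Q | x * b * x⁻¹ = a} with h | ⟨x₀, hx₀⟩
  · rw [h, Set.ncard_empty]
    exact Nat.zero_le _
  · have h1 : {x : Q | x * b * x⁻¹ = a} ⊆ (fun c => x₀ * c) '' (centralizer ({b} : Set Q) : Set Q) := by
      intro x hx
      refine ⟨x₀⁻¹ * x, ?_, by simp⟩
      rw [SetLike.mem_coe, mem_centralizer_singleton_iff]
      have e1 : x * b * x⁻¹ = x₀ * b * x₀⁻¹ := by rw [Set.mem_ofPred_eq] at hx hx₀; rw [hx, hx₀]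
      have e2 : x * b = x₀ * b * x₀⁻¹ * x := by rw [← e1]; group
      calc x₀⁻¹ * x * b = x₀⁻¹ * (x * b) := by group
        _ = b * (x₀⁻¹ * x) := by rw [e2]; group
    refine (Set.ncard_le_ncard h1 (Set.toFinite _)).trans ((Set.ncard_image_le (Set.toFinite _)).trans ?_)
    exact le_of_eq (Nat.card_coe_set_eq _).symm

/-- **the base size bound, class by class** -/
theorem sum_bound {A : Subgroup Q} {Γ : Subgroup (MulAut Q)} (h : EPT A Γ) (B : Finset Q)
    (hB2 : ∀ H : Subgroup Q, H ≤ A → H ≠ ⊥ → ∃ b ∈ B, b ∈ H)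
    (hB3 : ∀ b ∈ B, ∀ x : Q, x * b * x⁻¹ ∈ A → x * b * x⁻¹ ∈ B) (N : Q → ℕ)
    (hN : ∀ b ∈ B, {a : Q | a ∈ A ∧ ∃ x : Q, x * b * x⁻¹ = a}.ncard ≤ N b) :
    Nat.card Q ≤ Nat.card A + ∑ b ∈ B, N b * Nat.card (centralizer ({b} : Set Q)) := by
  classical
  haveI := Fintype.ofFinite Q
  have hcov : (Finset.univ : Finset Q) ⊆ Finset.univ.filter (· ∈ A) ∪
      B.biUnion (fun b => (Finset.univ.filter (fun a => a ∈ A ∧ ∃ x : Q, x * b * x⁻¹ = a)).biUnion
        (fun a => Finset.univ.filter (fun x => x * b * x⁻¹ = a))) := by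
    intro x _
    rw [Finset.mem_union]
    by_cases hx : x ∈ A
    · exact Or.inl (Finset.mem_filter.2 ⟨Finset.mem_univ _, hx⟩)
    · right
      obtain ⟨c, hc, hc2⟩ := hB2 (A ⊓ cj x A) inf_le_left (h.M0 x hx)
      have hb := mem_cj.1 (mem_inf.1 hc2).2
      have hbB : x⁻¹ * c * x ∈ B := by
        have := hB3 c hc x⁻¹ (by rw [inv_inv]; exact hb)
        rwa [inv_inv] at this
      refine Finset.mem_biUnion.2 ⟨x⁻¹ * c * x, hbB, Finset.mem_biUnion.2 ⟨c, ?_, ?_⟩⟩
      · exact Finset.mem_filter.2 ⟨Finset.mem_univ _, (mem_inf.1 hc2).1, x, by group⟩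
      · exact Finset.mem_filter.2 ⟨Finset.mem_univ _, by group⟩
  have h1 := Finset.card_le_card hcov
  rw [Finset.card_univ, ← Nat.card_eq_fintype_card] at h1
  refine h1.trans ((Finset.card_union_le _ _).trans (Nat.add_le_add ?_ ?_))
  · rw [Nat.card_eq_fintype_card, Fintype.card_subtype]
  · refine Finset.card_biUnion_le.trans (Finset.sum_le_sum fun b hb => ?_)
    refine Finset.card_biUnion_le.trans ?_
    refine (Finset.sum_le_card_nsmul _ _ (Nat.card (centralizer ({b} : Set Q))) ?_).trans ?_
    · intro a _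
      refine le_trans (le_of_eq ?_) (card_transporter a b)
      rw [Set.ncard_eq_toFinset_card']
      congr 1
      ext x
      simp
    · rw [smul_eq_mul]
      refine Nat.mul_le_mul_right _ (le_trans (le_of_eq ?_) (hN b hb))
      rw [Set.ncard_eq_toFinset_card']
      congr 1
      ext x
      simp

/-- the elements of prime order -/
noncomputable def primes (A : Subgroup Q) : Finset Q :=
  (Set.toFinite {a : Q | a ∈ A ∧ (orderOf a).Prime}).toFinset

theorem mem_primes {A : Subgroup Q} {a : Q} : a ∈ primes A ↔ a ∈ A ∧ (orderOf a).Prime := by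
  rw [primes, Set.Finite.mem_toFinset]
  rfl

/-- **the base size bound**: `P ≤ 1 + |B|²`, `B` the elements of prime order of `A`. -/
theorem minIndex_le {A : Subgroup Q} {Γ : Subgroup (MulAut Q)} (h : EPT A Γ) (hZ : center Q = ⊥) {P : ℕ}
    (hP : ∀ H : Subgroup Q, H ≠ ⊤ → P ≤ H.index) : P ≤ 1 + (primes A).card ^ 2 := by
  classical
  have hcard : ∀ H : Subgroup Q, H ≠ ⊤ → P * Nat.card H ≤ Nat.card Q := by
    intro H hH
    rw [← H.card_mul_index, mul_comm]
    exact Nat.mul_le_mul_left _ (hP H hH)
  have h1 := sum_bound h (primes A) ?_ ?_ (fun _ => (primes A).card) ?_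
  · have h2 : ∀ b ∈ primes A, P * ((primes A).card * Nat.card (centralizer ({b} : Set Q))) ≤
        (primes A).card * Nat.card Q := by
      intro b hb
      have hne : centralizer ({b} : Set Q) ≠ ⊤ := by
        intro e
        have hb1 : b ∈ center Q := by
          rw [mem_center_iff]
          intro g
          have : g ∈ centralizer ({b} : Set Q) := by rw [e]; exact mem_top _
          exact (mem_centralizer_singleton_iff.1 this)
        rw [hZ, mem_bot] at hb1
        have := (mem_primes.1 hb).2
        rw [hb1, orderOf_one] at this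
        exact Nat.not_prime_one this
      calc P * ((primes A).card * Nat.card (centralizer ({b} : Set Q)))
          = (primes A).card * (P * Nat.card (centralizer ({b} : Set Q))) := by ring
        _ ≤ _ := Nat.mul_le_mul_left _ (hcard _ hne)
    have h3 : P * Nat.card Q ≤ Nat.card Q + (primes A).card * ((primes A).card * Nat.card Q) := by
      refine (Nat.mul_le_mul_left P h1).trans ?_
      rw [mul_add, Finset.mul_sum]
      refine Nat.add_le_add (hcard A h.max.1) ?_
      refine (Finset.sum_le_card_nsmul _ _ _ h2).trans ?_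
      rw [smul_eq_mul]
    have h4 : P * Nat.card Q ≤ (1 + (primes A).card ^ 2) * Nat.card Q := by
      refine h3.trans (le_of_eq ?_)
      ring
    exact Nat.le_of_mul_le_mul_right h4 Nat.card_pos
  · intro H hHA hH
    obtain ⟨y, hy⟩ := (Subgroup.ne_bot_iff_exists_ne_one).1 hH
    have hyn : Nat.card H ≠ 1 := by
      rw [Ne, Subgroup.card_eq_one]
      exact hH
    obtain ⟨p, hp, hpd⟩ := Nat.exists_prime_and_dvd hyn
    haveI : Fact p.Prime := ⟨hp⟩
    obtain ⟨z, hz⟩ := exists_prime_orderOf_dvd_card' p hpd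
    refine ⟨z, mem_primes.2 ⟨hHA z.2, ?_⟩, z.2⟩
    rw [Subgroup.orderOf_coe, hz]
    exact hp
  · intro b hb x hx
    refine mem_primes.2 ⟨hx, ?_⟩
    have : orderOf (x * b * x⁻¹) = orderOf b := by
      have := orderOf_injective (MulAut.conj x).toMonoidHom (MulAut.conj x).injective b
      exact this
    rw [this]
    exact (mem_primes.1 hb).2
  · intro b hb
    rw [← Set.ncard_coe_finset]
    refine Set.ncard_le_ncard ?_ (Set.toFinite _)
    rintro a ⟨ha, x, rfl⟩
    refine mem_primes.2 ⟨ha, ?_⟩
    have : orderOf (x * b * x⁻¹) = orderOf b := by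
      have := orderOf_injective (MulAut.conj x).toMonoidHom (MulAut.conj x).injective b
      exact this
    rw [this]
    exact (mem_primes.1 hb).2

/-- **the base size bound, simple form**: `P ≤ |A|²`. -/
theorem minIndex_le_sq {A : Subgroup Q} {Γ : Subgroup (MulAut Q)} (h : EPT A Γ) (hZ : center Q = ⊥) {P : ℕ}
    (hP : ∀ H : Subgroup Q, H ≠ ⊤ → P ≤ H.index) : P ≤ Nat.card A ^ 2 := by
  classical
  have h1 := minIndex_le h hZ hP
  have h2 : (primes A).card + 1 ≤ Nat.card A := by
    have h3 : (insert 1 (primes A) : Finset Q).card = (primes A).card + 1 := by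
      apply Finset.card_insert_of_notMem
      intro h4
      have := (mem_primes.1 h4).2
      rw [orderOf_one] at this
      exact Nat.not_prime_one this
    rw [← h3, ← SetLike.coe_sort_coe, Nat.card_coe_set_eq, ← Set.ncard_coe_finset]
    refine Set.ncard_le_ncard ?_ (Set.toFinite _)
    intro a ha
    rw [Finset.mem_coe, Finset.mem_insert] at ha
    rcases ha with rfl | ha
    · exact A.one_mem
    · exact (mem_primes.1 ha).1
  refine h1.trans ?_
  calc 1 + (primes A).card ^ 2 ≤ ((primes A).card + 1) ^ 2 := by nlinarith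
    _ ≤ _ := Nat.pow_le_pow_left h2 2

/-- the simple group is not abelian -/
theorem center_eq_bot {A : Subgroup Q} {Γ : Subgroup (MulAut Q)} (hs : IsSimpleGroup Q) (h : EPT A Γ) :
    center Q = ⊥ := by
  rcases (inferInstance : (center Q).Normal).eq_bot_or_eq_top with h1 | h1
  · exact h1
  · exfalso
    apply h.max.1
    rw [Subgroup.eq_top_iff']
    intro x
    apply h.selfnorm
    intro a ha
    have h2 : a ∈ center Q := by rw [h1]; exact mem_top _
    rw [mem_center_iff.1 h2 x, mul_inv_cancel_right]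
    exact ha

/-- models of the same matrix group are isomorphic -/
theorem model_equiv {ι : Type} [Fintype ι] [DecidableEq ι] {F : Type*} [Field F] {S : Subgroup (GL ι F)}
    {Q Q' : Type*} [Group Q] [Group Q'] (m : Model Q S) (m' : Model Q' S) : Nonempty (Q ≃* Q') := by
  have hk : m.π.ker = m'.π.ker := by
    ext s
    rw [MonoidHom.mem_ker, MonoidHom.mem_ker, m.ker, m'.ker]
  exact ⟨(QuotientGroup.quotientKerEquivOfSurjective m.π m.surj).symm.trans
    ((QuotientGroup.quotientMulEquivOfEq hk).trans (QuotientGroup.quotientKerEquivOfSurjective m'.π m'.surj))⟩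

end Cfsg.Agent.H803.EPB
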